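import Cfsg.Agent.G2Syl.Count

/-!
The centralizer of an involution has 2-part at most the square of the 2-part of `q² - 1`.
-/

set_option autoImplicit false
set_option maxHeartbeats 1000000

namespace Cfsg.Agent.G2Syl

open QuadraticMap Module Cfsg.Agent.Classical OmegaSylow

universe u

variable {F : Type u} [Field F]

/-- Minus one on the circle. -/
def negOne : Circ F := ⟨-1, 0, by ring⟩

/-- The central involution of the chosen subgroup. -/
def zed : Aut F := torus (negOne, 1)

theorem zed_apply (x : Fin 8 → F) :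
    (zed : Aut F).1 x = ![x 0, x 1, -x 2, -x 3, -x 4, -x 5, x 6, x 7] := by
  show t1Fun negOne (t2Fun 1 x) = _
  rw [t2Fun_one]
  ext i; fin_cases i <;> simp [t1Fun, negOne]

theorem mm_e0 (x : Fin 8 → F) : mm x (e 0) = x := by
  ext i; fin_cases i <;> simp [mm, e]

theorem e0_mm (x : Fin 8 → F) : mm (e 0) x = x := by
  ext i; fin_cases i <;> simp [mm, e]

theorem aut_e0 (g : Aut F) : g.1 (e 0) = e 0 := by
  have h := (g.2 (e 0) (g.1.symm (e 0)))
  rw [e0_mm, g.1.apply_symm_apply, mm_e0] at h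
  exact h.symm

theorem aut_mm (g : Aut F) (x y : Fin 8 → F) : g.1 (mm x y) = mm (g.1 x) (g.1 y) := g.2 x y

/-- An automorphism is determined by its values on three generators. -/
theorem aut_ext {g h : Aut F} (h1 : g.1 (e 1) = h.1 (e 1)) (h2 : g.1 (e 2) = h.1 (e 2))
    (h4 : g.1 (e 4) = h.1 (e 4)) : g = h := by
  have e3 : (e 3 : Fin 8 → F) = mm (e 1) (e 2) := by ext i; fin_cases i <;> simp [mm, e]
  have e5 : (e 5 : Fin 8 → F) = mm (e 1) (e 4) := by ext i; fin_cases i <;> simp [mm, e]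
  have e6 : (e 6 : Fin 8 → F) = mm (e 2) (e 4) := by ext i; fin_cases i <;> simp [mm, e]
  have e7 : (e 7 : Fin 8 → F) = mm (e 1) (e 6) := by ext i; fin_cases i <;> simp [mm, e]
  have k6 : g.1 (e 6) = h.1 (e 6) := by rw [e6, aut_mm, aut_mm, h2, h4]
  refine Subtype.ext (LinearEquiv.toLinearMap_injective ((Pi.basisFun F (Fin 8)).ext fun i => ?_))
  rw [Pi.basisFun_apply]
  show g.1 (e i) = h.1 (e i)
  fin_cases i <;> dsimp only [Fin.zero_eta, Fin.mk_one, Fin.reduceFinMk]
  · rw [aut_e0, aut_e0]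
  · exact h1
  · exact h2
  · rw [e3, aut_mm, aut_mm, h1, h2]
  · exact h4
  · rw [e5, aut_mm, aut_mm, h1, h4]
  · exact k6
  · rw [e7, aut_mm, aut_mm, h1, k6]

/-- The imaginary part of the quaternion subalgebra fixed by `zed`. -/
def inc : (Fin 3 → F) →ₗ[F] (Fin 8 → F) where
  toFun y := ![0, y 0, 0, 0, 0, 0, y 1, y 2]
  map_add' x y := by ext i; fin_cases i <;> simp
  map_smul' c x := by ext i; fin_cases i <;> simp

theorem inc_apply (y : Fin 3 → F) : inc y = ![0, y 0, 0, 0, 0, 0, y 1, y 2] := rfl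

/-- The projection to that imaginary part. -/
def proj3 : (Fin 8 → F) →ₗ[F] (Fin 3 → F) where
  toFun x := ![x 1, x 6, x 7]
  map_add' x y := by ext i; fin_cases i <;> simp
  map_smul' c x := by ext i; fin_cases i <;> simp

theorem proj3_inc (y : Fin 3 → F) : proj3 (inc y) = y := by
  ext i; fin_cases i <;> simp [proj3, inc]

theorem mm_inc (y : Fin 3 → F) : mm (inc y) (inc y) = q3 F y • e 0 := by
  rw [q3_apply]
  ext i; fin_cases i <;> simp [mm, inc, e] <;> ring

variable [Finite F]

theorem inc_proj3 (h2 : (2 : F) ≠ 0) (g : Aut F) (hg : Commute g zed) (y : Fin 3 → F) :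
    inc (proj3 (g.1 (inc y))) = g.1 (inc y) := by
  set h := g.1 (inc y) with hh
  have hfix : (zed : Aut F).1 h = h := by
    have := congrArg (fun a : Aut F => a.1 (inc y)) hg.eq
    change g.1 ((zed : Aut F).1 (inc y)) = (zed : Aut F).1 h at this
    rw [← this, show (zed : Aut F).1 (inc y) = inc y by
      rw [zed_apply]; ext i; fin_cases i <;> simp [inc]]
  rw [zed_apply] at hfix
  have hz : ∀ i : Fin 8, 2 ≤ i → i ≤ 5 → h i = 0 := by
    intro i hi hi'
    refine (mul_eq_zero.1 (show (2 : F) * h i = 0 from ?_)).resolve_left h2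
    have := congrFun hfix i
    fin_cases i <;> simp at this hi hi' <;> dsimp only [Fin.reduceFinMk] <;> linear_combination -this
  have hsq : mm h h = q3 F y • e 0 := by
    rw [hh, ← aut_mm, mm_inc, map_smul, aut_e0]
  have h0 : h 0 = 0 := by
    by_contra h0
    have k : ∀ i : Fin 8, i = 1 ∨ i = 6 ∨ i = 7 → h i = 0 := by
      intro i hi
      refine (mul_eq_zero.1 (show (2 * h 0) * h i = 0 from ?_)).resolve_left (mul_ne_zero h2 h0)
      have := congrFun hsq i
      rcases hi with rfl | rfl | rfl <;>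
        simp [mm, e, hz 2, hz 3, hz 4, hz 5] at this <;> linear_combination this
    have hs : h = h 0 • e 0 := by
      ext i; fin_cases i <;> simp [e, hz 2, hz 3, hz 4, hz 5, k 1, k 6, k 7]
    have : inc y = h 0 • e 0 := g.1.injective (by rw [map_smul, aut_e0, ← hs])
    have := congrFun this 0
    simp [inc, e] at this
    exact h0 this.symm
  ext i; fin_cases i <;> simp [inc, proj3, hz 2, hz 3, hz 4, hz 5, h0]

/-- The centralizer of `zed`. -/
def Cent (F : Type u) [Field F] : Subgroup (Aut F) := Subgroup.centralizer {zed}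

theorem commute_of_mem {g : Aut F} (hg : g ∈ Cent F) : Commute g zed :=
  (Subgroup.mem_centralizer_iff.1 hg zed rfl).symm

/-- The action on the three-dimensional space. -/
def restrict (h2 : (2 : F) ≠ 0) : Cent F →* OQ (q3 F) where
  toFun g := ⟨
    { toFun := fun y => proj3 (g.1.1 (inc y))
      invFun := fun y => proj3 ((g⁻¹).1.1 (inc y))
      map_add' := fun x y => by simp only [map_add]
      map_smul' := fun c x => by simp only [map_smul, RingHom.id_apply]
      left_inv := fun y => by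
        show proj3 ((g⁻¹).1.1 (inc (proj3 (g.1.1 (inc y))))) = y
        rw [inc_proj3 h2 _ (commute_of_mem g.2)]
        show proj3 (g.1.1.symm (g.1.1 (inc y))) = y
        rw [LinearEquiv.symm_apply_apply, proj3_inc]
      right_inv := fun y => by
        show proj3 (g.1.1 (inc (proj3 ((g⁻¹).1.1 (inc y))))) = y
        rw [inc_proj3 h2 _ (commute_of_mem (g⁻¹).2)]
        show proj3 (g.1.1 (g.1.1.symm (inc y))) = y
        rw [LinearEquiv.apply_symm_apply, proj3_inc] }, fun y => by
      show q3 F (proj3 (g.1.1 (inc y))) = q3 F y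
      have h := mm_inc (proj3 (g.1.1 (inc y)))
      rw [inc_proj3 h2 _ (commute_of_mem g.2), ← aut_mm, mm_inc, map_smul, aut_e0] at h
      have := congrFun h 0
      simpa [e] using this.symm⟩
  map_one' := Subtype.ext (LinearEquiv.ext proj3_inc)
  map_mul' g h := Subtype.ext (LinearEquiv.ext fun y => by
    show proj3 (g.1.1 (h.1.1 (inc y))) = proj3 (g.1.1 (inc (proj3 (h.1.1 (inc y)))))
    rw [inc_proj3 h2 _ (commute_of_mem h.2)])

theorem restrict_apply (h2 : (2 : F) ≠ 0) (g : Cent F) (y : Fin 3 → F) :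
    inc ((restrict h2 g).1 y) = g.1.1 (inc y) :=
  inc_proj3 h2 _ (commute_of_mem g.2) y

theorem val_range (h2 : (2 : F) ≠ 0) :
    padicValNat 2 (Nat.card (restrict (F := F) h2).range) ≤ twoPart F := by
  set R := (restrict (F := F) h2).range
  let n : OQ (q3 F) := ⟨LinearEquiv.neg F, fun y => by simp⟩
  have hn : n * n = 1 := Subtype.ext (LinearEquiv.ext fun y => neg_neg y)
  have hn1 : n ≠ 1 := fun h => by
    have := congrFun (congrArg (fun a : OQ (q3 F) => a.1 (fun _ => 1)) h) 0
    change (-1 : F) = 1 at this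
    exact h2 (by linear_combination -this)
  have hnR : n ∉ R := by
    rintro ⟨g, hg⟩
    have key : ∀ y, g.1.1 (inc y) = -inc y := fun y => by
      rw [← restrict_apply h2, hg]; exact map_neg inc y
    have e1 : inc (Pi.single 0 (1 : F)) = e 1 := by
      ext i; fin_cases i <;> simp [inc, e]
    have e6 : inc (Pi.single 1 (1 : F)) = e 6 := by
      ext i; fin_cases i <;> simp [inc, e]
    have e7 : inc (Pi.single 2 (1 : F)) = e 7 := by
      ext i; fin_cases i <;> simp [inc, e]
    have hm : mm (e 1) (e 6) = (e 7 : Fin 8 → F) := by ext i; fin_cases i <;> simp [mm, e]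
    have h7 := key (Pi.single 2 1)
    rw [e7, ← hm, aut_mm, ← e1, ← e6, key, key, e1, e6, hm] at h7
    have h7' := congrFun h7 7
    simp [mm, e] at h7'
    exact h2 (by linear_combination h7')
  have hcomm : ∀ r : OQ (q3 F), r * n = n * r := fun r =>
    Subtype.ext (LinearEquiv.ext fun y => map_neg r.1 y)
  let f : R × Bool → OQ (q3 F) := fun x => x.1.1 * (if x.2 then n else 1)
  let H : Subgroup (OQ (q3 F)) :=
    { carrier := Set.range f
      one_mem' := ⟨(1, false), by simp [f]⟩
      mul_mem' := by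
        rintro _ _ ⟨⟨r, a⟩, rfl⟩ ⟨⟨s, b⟩, rfl⟩
        refine ⟨(r * s, xor a b), ?_⟩
        cases a <;> cases b <;>
          simp [f, mul_assoc, hn, ← hcomm (s : OQ (q3 F)), mul_left_comm]
        rw [← mul_assoc n, ← hcomm (s : OQ (q3 F)), mul_assoc, hn, mul_one]
      inv_mem' := by
        rintro _ ⟨⟨r, a⟩, rfl⟩
        refine ⟨(r⁻¹, a), ?_⟩
        have : n⁻¹ = n := inv_eq_of_mul_eq_one_right hn
        cases a <;> simp [f, this, ← hcomm] }
  have hinj : Function.Injective f := by
    rintro ⟨r, a⟩ ⟨s, b⟩ h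
    cases a <;> cases b <;> simp [f] at h ⊢
    · exact h
    · exact absurd (show n ∈ R by
        rw [show n = (s : OQ (q3 F))⁻¹ * r by rw [h, inv_mul_cancel_left]]
        exact mul_mem (inv_mem s.2) r.2) hnR
    · exact absurd (show n ∈ R by
        rw [show n = (r : OQ (q3 F))⁻¹ * s by rw [← h, inv_mul_cancel_left]]
        exact mul_mem (inv_mem r.2) s.2) hnR
    · exact h
  have hdvd : Nat.card R * 2 ∣ Nat.card (OQ (q3 F)) := by
    have h := Subgroup.card_subgroup_dvd_card H
    rwa [show Nat.card H = Nat.card (R × Bool) from (Nat.card_congr (Equiv.ofInjective f hinj)).symm,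
      Nat.card_prod, show Nat.card Bool = 2 by simp] at h
  have := (padicValNat_dvd_iff_le (p := 2) Nat.card_pos.ne').1 (pow_padicValNat_dvd.trans hdvd)
  rw [mul_comm (Nat.card R), val_two_mul Nat.card_pos.ne', val_card_OQ_q3 h2] at this
  omega

/-- The unit sphere in the moved subspace. -/
abbrev Sphere (F : Type u) [Field F] : Type u :=
  {x : Fin 8 → F // x 0 = 0 ∧ x 1 = 0 ∧ x 6 = 0 ∧ x 7 = 0 ∧
    x 2 * x 2 + x 3 * x 3 + x 4 * x 4 + x 5 * x 5 = 1}

/-- The sphere in the coordinates of the model. -/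
def sphereEquiv : Sphere F ≃
    {v : (Fin 2 × Fin 2) ⊕ Fin 0 → F // model 2 (Fin.elim0 : Fin 0 → F) v = 1} where
  toFun x := ⟨Sum.elim (fun p => ![![x.1 2, x.1 3], ![x.1 4, x.1 5]] p.1 p.2) Fin.elim0, by
    rw [model_apply]
    simp [Fin.sum_univ_two, plane_apply]
    linear_combination x.2.2.2.2.2⟩
  invFun v := ⟨![0, 0, v.1 (.inl (0, 0)), v.1 (.inl (0, 1)), v.1 (.inl (1, 0)), v.1 (.inl (1, 1)), 0, 0], by
    have h := v.2
    rw [model_apply] at h
    simp [Fin.sum_univ_two, plane_apply] at h ⊢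
    linear_combination h⟩
  left_inv x := by
    obtain ⟨a, b, c, d, -⟩ := x.2
    ext i; fin_cases i <;> simp [a, b, c, d]
  right_inv v := by
    apply Subtype.ext
    funext z
    rcases z with ⟨i, j⟩ | s
    · fin_cases i <;> fin_cases j <;> simp
    · exact s.elim0

theorem sphere_closed (h2 : (2 : F) ≠ 0) (g : Cent F) (x : Sphere F) :
    g.1.1 x.1 0 = 0 ∧ g.1.1 x.1 1 = 0 ∧ g.1.1 x.1 6 = 0 ∧ g.1.1 x.1 7 = 0 ∧
      g.1.1 x.1 2 * g.1.1 x.1 2 + g.1.1 x.1 3 * g.1.1 x.1 3 + g.1.1 x.1 4 * g.1.1 x.1 4 +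
        g.1.1 x.1 5 * g.1.1 x.1 5 = 1 := by
  obtain ⟨a, b, c, d, hx⟩ := x.2
  set h := g.1.1 x.1 with hh
  have hneg : (zed : Aut F).1 h = -h := by
    have := congrArg (fun k : Aut F => k.1 x.1) (commute_of_mem g.2).eq
    change g.1.1 ((zed : Aut F).1 x.1) = (zed : Aut F).1 h at this
    rw [← this, show (zed : Aut F).1 x.1 = -x.1 by
      rw [zed_apply]; ext i; fin_cases i <;> simp [a, b, c, d], map_neg]
  rw [zed_apply] at hneg
  have hz : ∀ i : Fin 8, i = 0 ∨ i = 1 ∨ i = 6 ∨ i = 7 → h i = 0 := by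
    intro i hi
    refine (mul_eq_zero.1 (show (2 : F) * h i = 0 from ?_)).resolve_left h2
    have := congrFun hneg i
    rcases hi with rfl | rfl | rfl | rfl <;> simp at this <;> linear_combination this
  have hsq : mm h h = (-1 : F) • e 0 := by
    rw [hh, ← aut_mm, show mm x.1 x.1 = (-1 : F) • e 0 by
      ext i; fin_cases i <;> simp [mm, e, a, b, c, d] <;>
        first | ring1 | linear_combination -hx,
      map_smul, aut_e0]
  have h0 := congrFun hsq 0
  simp [mm, e, hz] at h0
  exact ⟨hz 0 (.inl rfl), hz 1 (.inr (.inl rfl)), hz 6 (.inr (.inr (.inl rfl))),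
    hz 7 (.inr (.inr (.inr rfl))), by linear_combination -h0⟩

theorem ker_free (h2 : (2 : F) ≠ 0) (g : Cent F) (hg : restrict h2 g = 1) (x : Sphere F)
    (hx : g.1.1 x.1 = x.1) : g = 1 := by
  obtain ⟨a, b, c, d, hn⟩ := x.2
  have hI : ∀ y, g.1.1 (inc y) = inc y := fun y => by rw [← restrict_apply h2, hg]; rfl
  have hH : ∀ v : Fin 8 → F, v 2 = 0 → v 3 = 0 → v 4 = 0 → v 5 = 0 → g.1.1 v = v := by
    intro v v2 v3 v4 v5
    have e' : v = v 0 • e 0 + inc ![v 1, v 6, v 7] := by
      ext i; fin_cases i <;> simp [inc, e, v2, v3, v4, v5]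
    rw [e', map_add, map_smul, aut_e0, hI]
  have he2 : (e 2 : Fin 8 → F) = mm (-mm (e 2) x.1) x.1 := by
    ext i
    fin_cases i <;> simp [mm, e, a, b, c, d] <;> grobner
  have k2 : g.1.1 (e 2) = e 2 := by
    rw [he2, aut_mm, hx, hH (-mm (e 2) x.1)] <;> simp [mm, e, a, b, c, d]
  have k1 : g.1.1 (e 1) = e 1 := by
    refine hH _ ?_ ?_ ?_ ?_ <;> simp [e]
  have k6 : g.1.1 (e 6) = e 6 := by
    refine hH _ ?_ ?_ ?_ ?_ <;> simp [e]
  have e4 : (e 4 : Fin 8 → F) = mm (e 6) (e 2) := by ext i; fin_cases i <;> simp [mm, e]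
  have k4 : g.1.1 (e 4) = e 4 := by rw [e4, aut_mm, k6, k2]
  exact Subtype.ext (aut_ext (h := 1) k1 k2 k4)

theorem card_dvd_of_free {G α : Type*} [Group G] [Finite G] [Finite α] [MulAction G α]
    (h : ∀ g : G, ∀ a : α, g • a = a → g = 1) : Nat.card G ∣ Nat.card α := by
  classical
  rw [Nat.card_congr (MulAction.selfEquivSigmaOrbitsQuotientStabilizer G α)]
  have := Fintype.ofFinite (Quotient (MulAction.orbitRel G α))
  rw [Nat.card_sigma]
  refine Finset.dvd_sum fun o _ => ?_
  have hs : MulAction.stabilizer G o.out = ⊥ := (Subgroup.eq_bot_iff_forall _).2 fun g hg => h g _ hg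
  rw [hs, ← Subgroup.index_eq_card, Subgroup.index_bot]

theorem val_card_cent (h2 : (2 : F) ≠ 0) :
    padicValNat 2 (Nat.card (Cent F)) ≤ 2 * twoPart F := by
  have hk : padicValNat 2 (Nat.card (restrict (F := F) h2).ker) ≤ twoPart F := by
    let act : MulAction (restrict (F := F) h2).ker (Sphere F) :=
      { smul := fun g x => ⟨g.1.1.1 x.1, sphere_closed h2 g.1 x⟩
        one_smul := fun _ => rfl
        mul_smul := fun _ _ _ => rfl }
    have hd := card_dvd_of_free (G := (restrict (F := F) h2).ker) (α := Sphere F)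
      fun g x hx => Subtype.ext (ker_free h2 g.1 g.2 x (congrArg Subtype.val hx))
    rw [Nat.card_congr sphereEquiv] at hd
    have hne : Nonempty (Sphere F) := ⟨⟨e 2, by simp [e]⟩⟩
    have hpos : Nat.card {v : (Fin 2 × Fin 2) ⊕ Fin 0 → F //
        model 2 (Fin.elim0 : Fin 0 → F) v = 1} ≠ 0 := by
      rw [← Nat.card_congr sphereEquiv]
      exact Nat.card_pos.ne'
    exact ((padicValNat_dvd_iff_le hpos).1 (pow_padicValNat_dvd.trans hd)).trans_eq (val_sphere h2)
  have hr := val_range (F := F) h2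
  rw [Subgroup.card_eq_card_quotient_mul_card_subgroup (restrict (F := F) h2).ker,
    Nat.card_congr (QuotientGroup.quotientKerEquivRange _).toEquiv,
    padicValNat.mul Nat.card_pos.ne' Nat.card_pos.ne']
  omega

end Cfsg.Agent.G2Syl
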