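import Cfsg.Agent.G2Syl.Torus
import Cfsg.Agent.OmegaSylow.Iso

/-!
The 2-parts of the circle, of the unit sphere of four squares and of three-dimensional orthogonal
groups.
-/

set_option autoImplicit false
set_option maxHeartbeats 800000

namespace Cfsg.Agent.G2Syl

open QuadraticMap Module Cfsg.Agent.Classical OmegaSylow

universe u

variable {F : Type u} [Field F] [Finite F]

theorem val_circ (h2 : (2 : F) ≠ 0) : padicValNat 2 (Nat.card (Circ F)) + 1 = twoPart F := by
  classical
  have := Fintype.ofFinite F
  have hq := two_dvd_sub_one (F := F) h2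
  have hq1 : 1 < Nat.card F := Finite.one_lt_card
  have key := FiniteField.isSquare_neg_one_iff (F := F)
  rw [← Nat.card_eq_fintype_card] at key
  rw [twoPart]
  by_cases hneg : IsSquare (-1 : F)
  · obtain ⟨i, hi⟩ := id hneg
    have h4 : Nat.card F % 4 = 1 := by have := key.1 hneg; omega
    have hi0 : i ≠ 0 := by rintro rfl; simp at hi
    have e : Circ F ≃ Fˣ :=
      { toFun := fun u => ⟨u.re + i * u.im, u.re - i * u.im,
          by linear_combination u.norm_eq + u.im ^ 2 * hi,
          by linear_combination u.norm_eq + u.im ^ 2 * hi⟩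
        invFun := fun t => ⟨((t : F) + ↑t⁻¹) / 2, ((t : F) - ↑t⁻¹) / (2 * i), by
          have ht : (t : F) * ↑t⁻¹ = 1 := t.mul_inv
          field_simp
          grobner⟩
        left_inv := fun u => by ext <;> simp <;> field_simp <;> ring
        right_inv := fun t => by ext; simp; field_simp; ring }
    rw [Nat.card_congr e, Nat.card_units, val_two_mod_four (a := Nat.card F + 1) (by omega)]
    omega
  · have h4 : Nat.card F % 4 = 3 := by by_contra h; exact hneg (key.2 h)
    have hA : (binQF (0 : F) 1).Anisotropic := by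
      refine anisotropic_binQF fun x y h => ?_
      have hy : y = 0 := by
        by_contra hy
        exact hneg ⟨x / y, by field_simp; linear_combination -h⟩
      exact ⟨by simpa [hy] using h, hy⟩
    have e : Circ F ≃ {z // binQF (0 : F) 1 z = 1} :=
      { toFun := fun u => ⟨![u.re, u.im], by simpa using u.norm_eq⟩
        invFun := fun z => ⟨z.1 0, z.1 1, by simpa using z.2⟩
        left_inv := fun u => rfl
        right_inv := fun z => Subtype.ext (by ext j; fin_cases j <;> rfl) }
    rw [Nat.card_congr e, card_binQF_one hA, val_two_mod_four (a := Nat.card F - 1) (by omega)]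

/-- The hyperbolic equation `ab + cd = 1`. -/
noncomputable def plusSphereEquiv :
    {v : Fin 2 ⊕ Fin 2 → F // plusQF 2 F v = 1} ≃ (Fˣ × F × F) ⊕ (F × Fˣ) := by
  classical
  exact
    { toFun := fun v =>
        if h : v.1 (.inl 0) = 0 then
          .inr (v.1 (.inr 0), Units.mk0 (v.1 (.inl 1)) fun h' => by
            have := v.2; rw [plusQF_apply] at this
            simp [Cfsg.quadFormPlus, Fin.sum_univ_two, h, h'] at this)
        else .inl (Units.mk0 _ h, v.1 (.inl 1), v.1 (.inr 1))
      invFun := fun w => w.elim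
        (fun t => ⟨Sum.elim ![(t.1 : F), t.2.1] ![↑t.1⁻¹ * (1 - t.2.1 * t.2.2), t.2.2], by
          rw [plusQF_apply]; simp [Cfsg.quadFormPlus, Fin.sum_univ_two]⟩)
        (fun t => ⟨Sum.elim ![0, (t.2 : F)] ![t.1, ↑t.2⁻¹], by
          rw [plusQF_apply]; simp [Cfsg.quadFormPlus, Fin.sum_univ_two]⟩)
      left_inv := fun v => by
        have hv := v.2
        rw [plusQF_apply] at hv
        simp only [Cfsg.quadFormPlus, Fin.sum_univ_two] at hv
        apply Subtype.ext
        by_cases h : v.1 (.inl 0) = 0
        · rw [h, zero_mul, zero_add] at hv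
          ext (j | j) <;> fin_cases j <;> simp [h]
          exact (eq_inv_of_mul_eq_one_right hv).symm
        · ext (j | j) <;> fin_cases j <;> simp [h]
          field_simp
          linear_combination -hv
      right_inv := fun w => by rcases w with ⟨a, b, c⟩ | ⟨a, b⟩ <;> simp }

theorem val_sphere (h2 : (2 : F) ≠ 0) :
    padicValNat 2 (Nat.card {v : (Fin 2 × Fin 2) ⊕ Fin 0 → F // model 2 (Fin.elim0 : Fin 0 → F) v = 1})
      = twoPart F := by
  obtain ⟨g, hg⟩ := exists_iso h2 (model 2 (Fin.elim0 : Fin 0 → F)) (plusQF 2 F)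
    (bNondeg_model h2 fun s => s.elim0) Forms.bNondeg_plusQF (by simp) (by
      rw [det_model, show ⇑(plusQF 2 F) = Cfsg.quadFormPlus 2 F from
        funext fun v => plusQF_apply 2 v, Forms.det_polarGram_quadFormPlus]
      exact ⟨(2 : F) ^ 2, by simp; ring⟩)
  have hq1 : 1 < Nat.card F := Finite.one_lt_card
  rw [Nat.card_congr ((g.toEquiv.subtypeEquiv fun v => by simp [hg]).trans plusSphereEquiv),
    Nat.card_sum, Nat.card_prod, Nat.card_prod, Nat.card_prod, Nat.card_units]
  have e : (Nat.card F - 1) * (Nat.card F * Nat.card F) + Nat.card F * (Nat.card F - 1) =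
      Nat.card F ^ 1 * ((Nat.card F + 1) * (Nat.card F - 1)) := by ring
  rw [e, padicValNat.mul (by simp; omega) (mul_ne_zero (by omega) (by omega)), val_pow_card h2,
    padicValNat.mul (by omega) (by omega), zero_add, twoPart]

/-- Minus the sum of three squares. -/
noncomputable def q3 (F : Type u) [Field F] : QuadraticForm F (Fin 3 → F) :=
  QuadraticMap.weightedSumSquares F (fun _ : Fin 3 => (-1 : F))

omit [Finite F] in
theorem q3_apply (y : Fin 3 → F) : q3 F y = -(y 0 * y 0) - y 1 * y 1 - y 2 * y 2 := by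
  simp [q3, QuadraticMap.weightedSumSquares_apply, Fin.sum_univ_three]; ring

theorem bNondeg_q3 (h2 : (2 : F) ≠ 0) : BNondeg (q3 F) := by
  intro x hx
  funext a
  have h := hx (Pi.single a 1)
  have e : polar (q3 F) x (Pi.single a 1) = -2 * x a := by
    fin_cases a <;> simp [polar, q3_apply] <;> ring
  rw [e] at h
  exact (mul_eq_zero.1 h).resolve_left (neg_ne_zero.2 h2)

theorem val_card_OQ_q3 (h2 : (2 : F) ≠ 0) :
    padicValNat 2 (Nat.card (OQ (q3 F))) = 1 + twoPart F := by
  obtain ⟨g, hg⟩ := exists_iso h2 (q3 F) (oddQF 1 F) (bNondeg_q3 h2)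
    (bNondeg_congr (oddEquiv 1) (oddEquiv_spec 1) (bNondeg_hypExt _ fun x hx => by
      have h := hx x
      rw [polar_self, nsmul_eq_mul] at h
      exact anisotropic_sqQF x ((mul_eq_zero.1 h).resolve_left (by simpa using h2))))
    (by simp) (by
      rw [Matrix.det_fin_three, show ⇑(oddQF 1 F) = Cfsg.quadFormOdd 1 F from
        funext fun v => oddQF_apply 1 v, Forms.det_polarGram_quadFormOdd]
      refine ⟨4, ?_⟩
      simp [Forms.polarGram, polar, q3_apply, Pi.single_apply]
      ring)
  have := Fintype.ofFinite F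
  have hodd : Odd (Nat.card F) := Nat.odd_iff.2 (two_dvd_sub_one h2)
  rw [Nat.card_congr (OQCongr g hg).toEquiv,
    Nat.card_congr (OQCongr (oddEquiv 1) (oddEquiv_spec 1)).toEquiv, card_OQ_odd hodd,
    padicValNat.mul (mul_ne_zero two_ne_zero (pow_ne_zero _ Nat.card_pos.ne')) (prod_ne_zero 1),
    val_prod h2, val_two_mul (pow_ne_zero _ Nat.card_pos.ne'), val_pow_card h2]
  simp

end Cfsg.Agent.G2Syl
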