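import Cfsg.Agent.G2Syl.Bound

/-!
A Sylow 2-subgroup of `G₂(q)`, `q` odd, is generated by involutions.
-/

set_option autoImplicit false
set_option maxHeartbeats 1000000

namespace Cfsg.Agent.G2Syl

open Cfsg.Agent.Classical OmegaSylow

universe u

variable {F : Type u} [Field F]

/-- A square root of minus one on the circle. -/
def iota : Circ F := ⟨0, 1, by ring⟩

theorem iota_sq : (iota : Circ F) * iota = negOne := by
  ext <;> simp [iota, negOne, Circ.mul_re, Circ.mul_im]

theorem iota_pow_four : (iota : Circ F) ^ 4 = 1 := by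
  ext <;> simp [pow_succ, iota, Circ.mul_re, Circ.mul_im, Circ.one_re, Circ.one_im]

/-- Only two involutions commute with the chosen generators. -/
theorem eq_one_or_zed (h2 : (2 : F) ≠ 0) {w : Aut F} (hw : w * w = 1)
    (ha : Commute w (torus (iota, 1))) (hb : Commute w (torus (1, iota))) (hs : Commute w swap) :
    w = 1 ∨ w = zed := by
  have A : ∀ x, w.1 ((torus ((iota : Circ F), 1)).1 x) = (torus ((iota : Circ F), 1)).1 (w.1 x) :=
    fun x => congrArg (fun k : Aut F => k.1 x) ha.eq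
  have B : ∀ x, w.1 ((torus ((1 : Circ F), iota)).1 x) = (torus ((1 : Circ F), iota)).1 (w.1 x) :=
    fun x => congrArg (fun k : Aut F => k.1 x) hb.eq
  have S : ∀ x, w.1 ((swap : Aut F).1 x) = (swap : Aut F).1 (w.1 x) :=
    fun x => congrArg (fun k : Aut F => k.1 x) hs.eq
  have tA : ∀ x, (torus ((iota : Circ F), 1)).1 x = ![x 0, x 1, -x 3, x 2, x 5, -x 4, x 6, x 7] :=
    fun x => by
      rw [torus_apply, t2Fun_one]
      ext i; fin_cases i <;> simp [t1Fun, iota]
  have tB : ∀ x, (torus ((1 : Circ F), iota)).1 x = ![x 0, x 1, x 2, x 3, -x 5, x 4, x 7, -x 6] :=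
    fun x => by
      rw [torus_apply, t1Fun_one]
      ext i; fin_cases i <;> simp [t2Fun, iota]
  have two : ∀ {z : F}, 2 * z = 0 → z = 0 := fun h => (mul_eq_zero.1 h).resolve_left h2
  -- the image of `e 1`
  set p := w.1 (e 1) with hp
  have pA : p = ![p 0, p 1, -p 3, p 2, p 5, -p 4, p 6, p 7] := by
    conv_lhs => rw [hp, ← show (torus ((iota : Circ F), 1)).1 (e 1) = e 1 by
      rw [tA]; ext i; fin_cases i <;> simp [e], A, tA]
  have pB : p = ![p 0, p 1, p 2, p 3, -p 5, p 4, p 7, -p 6] := by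
    conv_lhs => rw [hp, ← show (torus ((1 : Circ F), iota)).1 (e 1) = e 1 by
      rw [tB]; ext i; fin_cases i <;> simp [e], B, tB]
  have p2 : p 2 = 0 := two (by
    have a := congrFun pA 2; have b := congrFun pA 3; simp at a b; linear_combination a - b)
  have p3 : p 3 = 0 := by have b := congrFun pA 3; simp at b; rw [b, p2]
  have p4 : p 4 = 0 := two (by
    have a := congrFun pA 4; have b := congrFun pA 5; simp at a b; linear_combination a + b)
  have p5 : p 5 = 0 := by have b := congrFun pA 5; simp at b; rw [b, p4, neg_zero]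
  have p6 : p 6 = 0 := two (by
    have a := congrFun pB 6; have b := congrFun pB 7; simp at a b; linear_combination a + b)
  have p7 : p 7 = 0 := by have b := congrFun pB 7; simp at b; rw [b, p6, neg_zero]
  -- the image of `e 2`
  set q := w.1 (e 2) with hq
  have qB : q = ![q 0, q 1, q 2, q 3, -q 5, q 4, q 7, -q 6] := by
    conv_lhs => rw [hq, ← show (torus ((1 : Circ F), iota)).1 (e 2) = e 2 by
      rw [tB]; ext i; fin_cases i <;> simp [e], B, tB]
  have qA : -q = ![q 0, q 1, -q 2, -q 3, -q 4, -q 5, q 6, q 7] := by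
    have h : (torus ((iota : Circ F), 1)).1 ((torus ((iota : Circ F), 1)).1 (e 2)) = -(e 2 : Fin 8 → F) := by
      rw [tA, tA]; ext i; fin_cases i <;> simp [e]
    rw [hq, ← map_neg, ← h, A, A, tA, tA]
    ext i; fin_cases i <;> simp
  have q0 : q 0 = 0 := two (by have a := congrFun qA 0; simp at a; linear_combination -a)
  have q1 : q 1 = 0 := two (by have a := congrFun qA 1; simp at a; linear_combination -a)
  have q4 : q 4 = 0 := two (by
    have a := congrFun qB 4; have b := congrFun qB 5; simp at a b; linear_combination a - b)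
  have q5 : q 5 = 0 := by have b := congrFun qB 5; simp at b; rw [b, q4]
  have q6 : q 6 = 0 := two (by
    have a := congrFun qB 6; have b := congrFun qB 7; simp at a b; linear_combination a + b)
  have q7 : q 7 = 0 := by have b := congrFun qB 7; simp at b; rw [b, q6, neg_zero]
  have w3 : w.1 (e 3) = ![0, 0, -q 3, q 2, 0, 0, 0, 0] := by
    have h : (torus ((iota : Circ F), 1)).1 (e 2) = (e 3 : Fin 8 → F) := by
      rw [tA]; ext i; fin_cases i <;> simp [e]
    rw [← h, A, ← hq, tA, q0, q1, q4, q5, q6, q7, neg_zero]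
  have w4 : w.1 (e 4) = ![0, 0, 0, 0, q 2, q 3, 0, 0] := by
    have h : -((swap : Aut F).1 (e 2)) = (e 4 : Fin 8 → F) := by
      rw [swap_apply]; ext i; fin_cases i <;> simp [piFun, e]
    rw [← h, map_neg, S, ← hq, swap_apply]
    ext i; fin_cases i <;> simp [piFun, q0, q1, q4, q5, q6, q7]
  have hn : q 2 * q 2 + q 3 * q 3 = 1 := by
    have h := aut_mm w (e 2) (e 2)
    rw [show mm (e 2) (e 2) = -(e 0 : Fin 8 → F) by ext i; fin_cases i <;> simp [mm, e], map_neg,
      aut_e0, ← hq] at h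
    have a := congrFun h 0
    simp [mm, e, q0, q1, q4, q5, q6, q7] at a
    linear_combination a
  have hsq : q 2 * q 2 - q 3 * q 3 = 1 := by
    have h : w.1 q = e 2 := congrArg (fun k : Aut F => k.1 (e 2)) hw
    have hqq : q = q 2 • e 2 + q 3 • e 3 := by
      ext i; fin_cases i <;> simp [e, q0, q1, q4, q5, q6, q7]
    rw [hqq, map_add, map_smul, map_smul, ← hq, w3] at h
    have a := congrFun h 2
    simp [e] at a
    linear_combination a
  have q3 : q 3 = 0 :=
    mul_self_eq_zero.1 (two (z := q 3 * q 3) (by linear_combination hn - hsq))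
  have hq2 : q 2 * q 2 = 1 := by rw [q3] at hn; linear_combination hn
  have hne : q 2 ≠ 0 := fun h => one_ne_zero (α := F) (by rw [← hq2, h, mul_zero])
  have hp1 : p = e 1 := by
    have h := aut_mm w (e 1) (e 2)
    rw [show mm (e 1) (e 2) = (e 3 : Fin 8 → F) by ext i; fin_cases i <;> simp [mm, e], w3,
      ← hp, ← hq] at h
    have a := congrFun h 2
    have b := congrFun h 3
    simp [mm, q0, q1, q3, q4, q5, q6, q7, p2, p3, p4, p5, p6, p7] at a b
    have hp0 : p 0 = 0 := (mul_eq_zero.1 (show p 0 * q 2 = 0 by grobner)).resolve_right hne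
    have hp1 : p 1 = 1 := mul_right_cancel₀ hne (show p 1 * q 2 = 1 * q 2 by grobner)
    ext i; fin_cases i <;> simp [e, hp0, hp1, p2, p3, p4, p5, p6, p7]
  rcases mul_self_eq_one_iff.1 hq2 with h | h
  · refine Or.inl (aut_ext (h := 1) (hp ▸ hp1) ?_ ?_)
    · show q = e 2
      ext i; fin_cases i <;> simp [e, h, q0, q1, q3, q4, q5, q6, q7]
    · show w.1 (e 4) = e 4
      rw [w4]; ext i; fin_cases i <;> simp [e, h, q3]
  · refine Or.inr (aut_ext ?_ ?_ ?_)
    · rw [← hp, hp1, zed_apply]; ext i; fin_cases i <;> simp [e]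
    · rw [← hq, zed_apply]; ext i; fin_cases i <;> simp [e, h, q0, q1, q3, q4, q5, q6, q7]
    · rw [w4, zed_apply]; ext i; fin_cases i <;> simp [e, h, q3]

/-- An element of the chosen subgroup. -/
def gen (u v : Circ F) (a b : Bool) : Aut F :=
  torus (u, v) * (if a then sigma else 1) * (if b then swap else 1)

theorem gen_apply (u v : Circ F) (a b : Bool) (x : Fin 8 → F) :
    (gen u v a b).1 x = t1Fun u (t2Fun v ((if a then sigmaFun else id) ((if b then piFun else id) x))) := by
  cases a <;> cases b <;> rfl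

theorem gen_e1 (u v : Circ F) (a b : Bool) :
    (gen u v a b).1 (e 1) 1 = if a then -1 else 1 := by
  rw [gen_apply]
  cases a <;> cases b <;> simp [t1Fun, t2Fun, sigmaFun, piFun, e]

theorem gen_e2 (u v : Circ F) (a b : Bool) :
    (gen u v a b).1 (e 2) 2 = (if b then 0 else u.re) ∧
      (gen u v a b).1 (e 2) 3 = (if b then 0 else u.im) := by
  rw [gen_apply]
  cases a <;> cases b <;> simp [t1Fun, t2Fun, sigmaFun, piFun, e]

theorem gen_inj (h2 : (2 : F) ≠ 0) {u v u' v' : Circ F} {a b a' b' : Bool}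
    (h : gen u v a b = gen u' v' a' b') : a = a' ∧ b = b' := by
  have k1 := gen_e1 u v a b
  have k2 := gen_e2 u v a b
  rw [h, gen_e1] at k1
  rw [h, (gen_e2 u' v' a' b').1, (gen_e2 u' v' a' b').2] at k2
  constructor
  · cases a <;> cases a' <;> simp at k1 ⊢ <;> exact h2 (by first | linear_combination k1 | linear_combination -k1)
  · have n1 := u.norm_eq
    have n2 := u'.norm_eq
    cases b <;> cases b' <;> simp at k2 ⊢ <;> grobner

theorem conj_mem_sup {G : Type*} [Group G] {t s : G} {A : Subgroup G} (ht : t * t = 1)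
    (hA : ∀ x ∈ A, t * x * t ∈ A) (hc : Commute s t) :
    ∀ x ∈ A ⊔ Subgroup.zpowers s, t * x * t ∈ A ⊔ Subgroup.zpowers s := by
  have hinv : t⁻¹ = t := inv_eq_of_mul_eq_one_right ht
  intro x hx
  let K : Subgroup G := (A ⊔ Subgroup.zpowers s).comap (MulAut.conj t).toMonoidHom
  have hK : A ⊔ Subgroup.zpowers s ≤ K := by
    refine sup_le (fun y hy => ?_) (Subgroup.zpowers_le.2 ?_)
    · show t * y * t⁻¹ ∈ A ⊔ Subgroup.zpowers s
      rw [hinv]; exact Subgroup.mem_sup_left (hA y hy)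
    · show t * s * t⁻¹ ∈ A ⊔ Subgroup.zpowers s
      rw [← hc.eq, mul_inv_cancel_right]
      exact Subgroup.mem_sup_right (Subgroup.mem_zpowers _)
  have := hK hx
  change t * x * t⁻¹ ∈ A ⊔ Subgroup.zpowers s at this
  rwa [hinv] at this

variable [Finite F]

theorem exists_gen_sylow (h2 : (2 : F) ≠ 0) :
    ∃ P : Sylow 2 (Aut F), SylowPerm.GenOrd 2 (P : Subgroup (Aut F)) := by
  classical
  obtain ⟨S⟩ : Nonempty (Sylow 2 (Circ F)) := inferInstance
  have hiota : (iota : Circ F) ∈ (S : Subgroup (Circ F)) := by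
    have hp : IsPGroup 2 (Subgroup.zpowers (iota : Circ F)) := by
      rw [IsPGroup.iff_card, Nat.card_zpowers]
      obtain ⟨j, -, hj⟩ := (Nat.dvd_prime_pow Nat.prime_two).1
        (orderOf_dvd_of_pow_eq_one (show (iota : Circ F) ^ 2 ^ 2 = 1 from iota_pow_four))
      exact ⟨j, hj⟩
    obtain ⟨S', hS'⟩ := hp.exists_le_sylow
    obtain ⟨g, hg⟩ := MulAction.exists_smul_eq (Circ F) S' S
    rw [← hg, Sylow.smul_eq_of_normal]
    exact hS' (Subgroup.mem_zpowers _)
  set A := ((S : Subgroup (Circ F)).prod (S : Subgroup (Circ F))).map torus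
  have hA : IsPGroup 2 A := by
    refine IsPGroup.map ?_ _
    refine IsPGroup.of_card (n := padicValNat 2 (Nat.card (Circ F)) + padicValNat 2 (Nat.card (Circ F))) ?_
    rw [Nat.card_congr ((S : Subgroup (Circ F)).prodEquiv (S : Subgroup (Circ F))).toEquiv,
      Nat.card_prod, S.card_eq_multiplicity, Nat.factorization_def _ Nat.prime_two, ← pow_add]
  have hinvol : ∀ a : Aut F, a * a = 1 → IsPGroup 2 (Subgroup.zpowers a) := fun a ha => by
    rw [IsPGroup.iff_card, Nat.card_zpowers]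
    obtain ⟨j, -, hj⟩ := (Nat.dvd_prime_pow Nat.prime_two).1
      (orderOf_dvd_of_pow_eq_one (show a ^ 2 ^ 1 = 1 by rw [pow_one, pow_two, ha]))
    exact ⟨j, hj⟩
  have hnorm : ∀ (N : Subgroup (Aut F)) (a : Aut F), a * a = 1 → (∀ x ∈ N, a * x * a ∈ N) →
      Subgroup.zpowers a ≤ Subgroup.normalizer (N : Set (Aut F)) := by
    intro N a ha h
    rw [Subgroup.zpowers_le, Subgroup.mem_normalizer_iff]
    have hinv : a⁻¹ = a := inv_eq_of_mul_eq_one_right ha
    intro x
    rw [hinv]
    refine ⟨h x, fun hx => ?_⟩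
    have := h _ hx
    rwa [show a * (a * x * a) * a = (a * a) * x * (a * a) by group, ha, one_mul, mul_one] at this
  have hAs : ∀ x ∈ A, (sigma : Aut F) * x * sigma ∈ A := by
    rintro _ ⟨⟨u, v⟩, ⟨hu, hv⟩, rfl⟩
    rw [sigma_torus]
    exact Subgroup.mem_map_of_mem _ ⟨(S : Subgroup (Circ F)).inv_mem hu, (S : Subgroup (Circ F)).inv_mem hv⟩
  have hAw : ∀ x ∈ A, (swap : Aut F) * x * swap ∈ A := by
    rintro _ ⟨⟨u, v⟩, ⟨hu, hv⟩, rfl⟩
    rw [swap_torus]
    exact Subgroup.mem_map_of_mem _ ⟨(S : Subgroup (Circ F)).mul_mem ((S : Subgroup (Circ F)).inv_mem hu) hv, hv⟩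
  set A₁ := A ⊔ Subgroup.zpowers (sigma : Aut F)
  have hA₁ : IsPGroup 2 A₁ :=
    hA.to_sup_of_normal_left' (hinvol _ sigma_mul_self) (hnorm _ _ sigma_mul_self hAs)
  have hA₁w : ∀ x ∈ A₁, (swap : Aut F) * x * swap ∈ A₁ :=
    conj_mem_sup swap_mul_self hAw sigma_commute_swap
  set P₀ := A₁ ⊔ Subgroup.zpowers (swap : Aut F)
  have hP₀ : IsPGroup 2 P₀ :=
    hA₁.to_sup_of_normal_left' (hinvol _ swap_mul_self) (hnorm _ _ swap_mul_self hA₁w)
  have hsigma : (sigma : Aut F) ∈ P₀ := Subgroup.mem_sup_left (Subgroup.mem_sup_right (Subgroup.mem_zpowers _))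
  have hswap : (swap : Aut F) ∈ P₀ := Subgroup.mem_sup_right (Subgroup.mem_zpowers _)
  have hT : ∀ u ∈ (S : Subgroup (Circ F)), ∀ v ∈ (S : Subgroup (Circ F)), torus (u, v) ∈ P₀ :=
    fun u hu v hv => Subgroup.mem_sup_left (Subgroup.mem_sup_left
      (Subgroup.mem_map_of_mem _ ⟨hu, hv⟩))
  -- the order
  let f : (↥(S : Subgroup (Circ F)) × ↥(S : Subgroup (Circ F))) × Bool × Bool → P₀ := fun x =>
    ⟨torus ((x.1.1 : Circ F), (x.1.2 : Circ F)) * (if x.2.1 then sigma else 1) *
      (if x.2.2 then swap else 1),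
      mul_mem (mul_mem (hT _ x.1.1.2 _ x.1.2.2) (by split <;> first | exact hsigma | exact one_mem _))
        (by split <;> first | exact hswap | exact one_mem _)⟩
  have hf : Function.Injective f := by
    rintro ⟨⟨⟨u, hu⟩, ⟨v, hv⟩⟩, a, b⟩ ⟨⟨⟨u', hu'⟩, ⟨v', hv'⟩⟩, a', b'⟩ h
    have hg : gen u v a b = gen u' v' a' b' := congrArg Subtype.val h
    obtain ⟨rfl, rfl⟩ := gen_inj h2 hg
    have ht : torus (u, v) = torus (u', v') := by
      exact mul_right_cancel (mul_right_cancel hg)
    have l : ∀ i j, t1Fun u (t2Fun v (e i)) j = t1Fun u' (t2Fun v' (e i)) j := fun i j =>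
      congrArg (fun k : Aut F => k.1 (e i) j) ht
    have l2 := l 2 2
    have l3 := l 2 3
    have l6 := l 6 6
    have l7 := l 6 7
    simp [t1Fun, t2Fun, e] at l2 l3 l6 l7
    obtain rfl : u = u' := Circ.ext l2 l3
    obtain rfl : v = v' := Circ.ext l6 (by linear_combination l7)
    rfl
  have hcard : 2 ^ (2 * twoPart F) ≤ Nat.card P₀ := by
    refine le_trans (le_of_eq ?_) (Nat.card_le_card_of_injective f hf)
    rw [Nat.card_prod, Nat.card_prod, Nat.card_prod, S.card_eq_multiplicity,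
      Nat.factorization_def _ Nat.prime_two, show Nat.card Bool = 2 by simp, ← val_circ h2]
    ring
  obtain ⟨P, hP⟩ := hP₀.exists_le_sylow
  refine ⟨P, ?_⟩
  have hne : Nontrivial (P : Subgroup (Aut F)) := by
    rw [Subgroup.nontrivial_iff_ne_bot]
    intro h
    have : (sigma : Aut F) = 1 := Subgroup.mem_bot.1 (h ▸ hP hsigma)
    have := congrFun (congrArg (fun k : Aut F => k.1 (e 1)) this) 1
    change sigmaFun (e 1) 1 = e 1 1 at this
    simp [sigmaFun, e] at this
    exact h2 (by linear_combination -this)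
  have : Nontrivial (Subgroup.center (P : Subgroup (Aut F))) := P.2.center_nontrivial
  obtain ⟨w, hw⟩ := exists_prime_orderOf_dvd_card' (G := Subgroup.center (P : Subgroup (Aut F))) 2 (by
    obtain ⟨n, hn, hc⟩ := ((P.2.to_subgroup _).nontrivial_iff_card).1 this
    rw [hc]; exact dvd_pow_self 2 hn.ne')
  have hwz : (w.1.1 : Aut F) = zed := by
    have hcom : ∀ x ∈ (P : Subgroup (Aut F)), Commute (w.1.1 : Aut F) x := fun x hx =>
      (congrArg Subtype.val (Subgroup.mem_center_iff.1 w.2 ⟨x, hx⟩)).symm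
    have hww : w.1.1 * w.1.1 = 1 := by
      have := pow_orderOf_eq_one w
      rw [hw, pow_two] at this
      exact congrArg (fun k => (k.1.1 : Aut F)) this
    refine (eq_one_or_zed h2 hww (hcom _ (hP (hT _ hiota _ (one_mem _))))
      (hcom _ (hP (hT _ (one_mem _) _ hiota))) (hcom _ (hP hswap))).resolve_left fun h1 => ?_
    rw [show w = 1 from Subtype.ext (Subtype.ext h1), orderOf_one] at hw
    omega
  have hPC : (P : Subgroup (Aut F)) ≤ Cent F := by
    intro x hx
    refine Subgroup.mem_centralizer_iff.2 fun y hy => ?_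
    rw [Set.mem_singleton_iff.1 hy, ← hwz]
    exact (congrArg Subtype.val (Subgroup.mem_center_iff.1 w.2 ⟨x, hx⟩)).symm
  have hEq : P₀ = (P : Subgroup (Aut F)) := by
    refine Subgroup.eq_of_le_of_card_ge hP (le_trans ?_ hcard)
    obtain ⟨n, hn⟩ := P.2.exists_card_eq
    rw [hn]
    refine Nat.pow_le_pow_right (by norm_num) ?_
    have hd := Subgroup.card_dvd_of_le hPC
    rw [hn] at hd
    exact ((padicValNat_dvd_iff_le Nat.card_pos.ne').1 hd).trans (val_card_cent h2)
  rw [← hEq]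
  set I : Set (Aut F) := {x | x ∈ P₀ ∧ x ^ 2 = 1}
  have hs : (sigma : Aut F) ∈ Subgroup.closure I :=
    Subgroup.subset_closure ⟨hsigma, by rw [pow_two, sigma_mul_self]⟩
  refine sup_le (sup_le ?_ (Subgroup.zpowers_le.2 hs)) (Subgroup.zpowers_le.2 (Subgroup.subset_closure
    ⟨hswap, by rw [pow_two, swap_mul_self]⟩))
  rintro _ ⟨⟨u, v⟩, ⟨hu, hv⟩, rfl⟩
  have h1 : torus (u, v) * sigma ∈ Subgroup.closure I := by
    refine Subgroup.subset_closure ⟨mul_mem (hT u hu v hv) hsigma, ?_⟩
    rw [pow_two, show torus (u, v) * sigma * (torus (u, v) * sigma) =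
      torus (u, v) * (sigma * torus (u, v) * sigma) by group, sigma_torus, ← map_mul,
      Prod.mk_mul_mk, mul_inv_cancel, mul_inv_cancel, ← Prod.one_eq_mk, map_one]
  have := mul_mem h1 hs
  rwa [mul_assoc, sigma_mul_self, mul_one] at this

end Cfsg.Agent.G2Syl
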