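import Cfsg.Prelude.Def_G2
import Mathlib

/-!
A compact model of the octonion algebra: pairs `(a, v)` in `K × K³`, `K = F[i]`, `i² = -1`, with
`(a, v)(b, w) = (ab - Σ v conj w, a w + conj b v + conj (v × w))`.
-/

set_option autoImplicit false
set_option maxHeartbeats 1000000

namespace Cfsg.Agent.G2Syl

universe u

variable {F : Type u} [Field F]

/-- The product in the compact model. -/
def mm (x y : Fin 8 → F) : Fin 8 → F :=
  ![x 0 * y 0 - x 1 * y 1 -
      (x 2 * y 2 + x 3 * y 3 + x 4 * y 4 + x 5 * y 5 + x 6 * y 6 + x 7 * y 7),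
    x 0 * y 1 + x 1 * y 0 -
      (x 3 * y 2 - x 2 * y 3 + x 5 * y 4 - x 4 * y 5 + x 7 * y 6 - x 6 * y 7),
    x 0 * y 2 - x 1 * y 3 + y 0 * x 2 + y 1 * x 3 +
      (x 4 * y 6 - x 5 * y 7 - x 6 * y 4 + x 7 * y 5),
    x 0 * y 3 + x 1 * y 2 + y 0 * x 3 - y 1 * x 2 -
      (x 4 * y 7 + x 5 * y 6 - x 6 * y 5 - x 7 * y 4),
    x 0 * y 4 - x 1 * y 5 + y 0 * x 4 + y 1 * x 5 +
      (x 6 * y 2 - x 7 * y 3 - x 2 * y 6 + x 3 * y 7),
    x 0 * y 5 + x 1 * y 4 + y 0 * x 5 - y 1 * x 4 -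
      (x 6 * y 3 + x 7 * y 2 - x 2 * y 7 - x 3 * y 6),
    x 0 * y 6 - x 1 * y 7 + y 0 * x 6 + y 1 * x 7 +
      (x 2 * y 4 - x 3 * y 5 - x 4 * y 2 + x 5 * y 3),
    x 0 * y 7 + x 1 * y 6 + y 0 * x 7 - y 1 * x 6 -
      (x 2 * y 5 + x 3 * y 4 - x 4 * y 3 - x 5 * y 2)]

/-- A basis vector. -/
def e (i : Fin 8) : Fin 8 → F := Pi.single i 1

/-- The automorphisms of the compact model. -/
def Aut (F : Type u) [Field F] : Subgroup ((Fin 8 → F) ≃ₗ[F] (Fin 8 → F)) where
  carrier := {g | ∀ x y, g (mm x y) = mm (g x) (g y)}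
  one_mem' _ _ := rfl
  mul_mem' {g h} hg hh x y := by
    rw [LinearEquiv.mul_apply, hh, hg]; rfl
  inv_mem' {g} hg x y := by
    apply g.injective
    rw [hg]
    show g (g.symm (mm x y)) = mm (g (g.symm x)) (g (g.symm y))
    simp

instance finite_Aut [Finite F] : Finite (Aut F) :=
  Finite.of_injective (fun g => ⇑g.1) fun _ _ h => Subtype.ext (DFunLike.coe_injective h)

/-- The map to Zorn's algebra. -/
def phiFun (r s : F) : (Fin 8 → F) →ₗ[F] (Fin 8 → F) where
  toFun x := ![x 0 + r * x 2 + s * x 3, x 1 + s * x 2 - r * x 3, x 4 + r * x 6 - s * x 7,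
    -x 5 + s * x 6 + r * x 7, -x 1 + s * x 2 - r * x 3, -x 4 + r * x 6 - s * x 7,
    x 5 + s * x 6 + r * x 7, x 0 - r * x 2 - s * x 3]
  map_add' x y := by ext i; fin_cases i <;> simp <;> ring
  map_smul' c x := by ext i; fin_cases i <;> simp <;> ring

theorem phiFun_injective (h2 : (2 : F) ≠ 0) {r s : F} (hrs : r ^ 2 + s ^ 2 = -1) :
    Function.Injective (phiFun r s) := by
  rw [← LinearMap.ker_eq_bot, LinearMap.ker_eq_bot']
  intro x hx
  have e0 := congrFun hx 0
  have e1 := congrFun hx 1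
  have e2 := congrFun hx 2
  have e3 := congrFun hx 3
  have e4 := congrFun hx 4
  have e5 := congrFun hx 5
  have e6 := congrFun hx 6
  have e7 := congrFun hx 7
  simp [phiFun] at e0 e1 e2 e3 e4 e5 e6 e7
  ext i
  refine mul_left_cancel₀ h2 ?_
  fin_cases i <;>
    simp only [Pi.zero_apply, mul_zero, Fin.isValue, Fin.mk_one, Fin.reduceFinMk, Fin.zero_eta]
  · linear_combination e0 + e7
  · linear_combination e1 - e4
  · linear_combination -r * (e0 - e7) - s * (e1 + e4) + 2 * x 2 * hrs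
  · linear_combination -s * (e0 - e7) + r * (e1 + e4) + 2 * x 3 * hrs
  · linear_combination e2 - e5
  · linear_combination e6 - e3
  · linear_combination -r * (e2 + e5) - s * (e3 + e6) + 2 * x 6 * hrs
  · linear_combination s * (e2 + e5) - r * (e3 + e6) + 2 * x 7 * hrs

theorem phiFun_mm {r s : F} (hrs : r ^ 2 + s ^ 2 = -1) (x y : Fin 8 → F) :
    phiFun r s (mm x y) = Cfsg.Lie.zornMul (phiFun r s x) (phiFun r s y) := by
  have h : s ^ 2 = -1 - r ^ 2 := by linear_combination hrs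
  have h3 : s ^ 3 = s * (-1 - r ^ 2) := by linear_combination s * hrs
  ext i
  fin_cases i <;>
    simp [phiFun, mm, Cfsg.Lie.zornMul, Cfsg.Lie.zA, Cfsg.Lie.zB, Cfsg.Lie.dot3, Cfsg.Lie.cross3] <;>
    ring_nf <;> simp only [h, h3] <;> ring

theorem exists_phi (h2 : (2 : F) ≠ 0) [Finite F] : ∃ φ : (Fin 8 → F) ≃ₗ[F] (Fin 8 → F),
    ∀ x y, φ (mm x y) = Cfsg.Lie.zornMul (φ x) (φ y) := by
  have := Fintype.ofFinite F
  have hc : ringChar F ≠ 2 := fun h => by
    have : CharP F 2 := ringChar.of_eq h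
    exact h2 (CharP.cast_eq_zero F 2)
  obtain ⟨r, s, hrs⟩ := FiniteField.exists_root_sum_quadratic
    (f := (Polynomial.X : Polynomial F) ^ 2) (g := Polynomial.X ^ 2 + 1) (by simp) (by
      rw [show (Polynomial.X : Polynomial F) ^ 2 + 1 = Polynomial.X ^ 2 + Polynomial.C 1 by simp]
      exact Polynomial.degree_X_pow_add_C (by norm_num) _) (by
      exact FiniteField.odd_card_of_char_ne_two hc)
  simp at hrs
  have hrs' : r ^ 2 + s ^ 2 = -1 := by linear_combination hrs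
  refine ⟨LinearEquiv.ofInjectiveEndo _ (phiFun_injective h2 hrs'), fun x y => ?_⟩
  simp only [LinearEquiv.coe_ofInjectiveEndo]
  exact phiFun_mm hrs' x y

/-- `G₂(F)` is the automorphism group of the compact model. -/
theorem nonempty_equiv_G2 (h2 : (2 : F) ≠ 0) [Finite F] :
    Nonempty (↥(Aut F) ≃* ↥(Cfsg.Lie.G2 F)) := by
  obtain ⟨φ, hφ⟩ := exists_phi h2
  let ev : GL (Fin 8) F ≃* ((Fin 8 → F) ≃ₗ[F] (Fin 8 → F)) :=
    Matrix.GeneralLinearGroup.toLin.trans
      (LinearMap.GeneralLinearGroup.generalLinearEquiv F (Fin 8 → F))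
  have hev : ∀ g v, ev g v = (g : Matrix (Fin 8) (Fin 8) F).mulVec v := fun g v => rfl
  let c : GL (Fin 8) F ≃* ((Fin 8 → F) ≃ₗ[F] (Fin 8 → F)) := ev.trans
    { toFun := fun a => (φ.trans a).trans φ.symm
      invFun := fun b => (φ.symm.trans b).trans φ
      left_inv := fun a => by ext; simp
      right_inv := fun a => by ext; simp
      map_mul' := fun a b => by ext; simp }
  have hmem : ∀ g, g ∈ Cfsg.Lie.G2 F ↔ c g ∈ Aut F := by
    intro g
    constructor
    · intro hg x y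
      show φ.symm (ev g (φ (mm x y))) = mm (φ.symm (ev g (φ x))) (φ.symm (ev g (φ y)))
      apply φ.injective
      rw [hφ, hφ, φ.apply_symm_apply, φ.apply_symm_apply, φ.apply_symm_apply, hev, hev, hev]
      exact hg _ _
    · intro hg x y
      have h := congrArg φ (hg (φ.symm x) (φ.symm y))
      change φ (φ.symm (ev g (φ (mm (φ.symm x) (φ.symm y))))) =
        φ (mm (φ.symm (ev g (φ (φ.symm x)))) (φ.symm (ev g (φ (φ.symm y))))) at h
      simp only [hφ, φ.apply_symm_apply, hev] at h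
      exact h
  have hmap : (Cfsg.Lie.G2 F).map c.toMonoidHom = Aut F := by
    ext a
    constructor
    · rintro ⟨g, hg, rfl⟩; exact (hmem g).1 hg
    · exact fun ha => ⟨c.symm a, (hmem _).2 (by rwa [c.apply_symm_apply]), c.apply_symm_apply a⟩
  exact ⟨(((Cfsg.Lie.G2 F).equivMapOfInjective c.toMonoidHom c.injective).trans
    (MulEquiv.subgroupCongr hmap)).symm⟩

end Cfsg.Agent.G2Syl
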