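import Cfsg.Agent.G2Syl.Model

/-!
A torus of the compact model, the conjugation and a permutation automorphism.
-/

set_option autoImplicit false
set_option maxHeartbeats 1000000

namespace Cfsg.Agent.G2Syl

universe u

variable {F : Type u} [Field F]

/-- The circle `x² + y² = 1`. -/
@[ext]
structure Circ (F : Type u) [Field F] where
  /-- The first coordinate. -/
  re : F
  /-- The second coordinate. -/
  im : F
  norm_eq : re ^ 2 + im ^ 2 = 1

instance : CommGroup (Circ F) where
  mul u v := ⟨u.re * v.re - u.im * v.im, u.re * v.im + u.im * v.re, by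
    linear_combination (v.re ^ 2 + v.im ^ 2) * u.norm_eq + v.norm_eq⟩
  one := ⟨1, 0, by ring⟩
  inv u := ⟨u.re, -u.im, by linear_combination u.norm_eq⟩
  mul_assoc a b c := by
    ext
    · show (a.re * b.re - a.im * b.im) * c.re - (a.re * b.im + a.im * b.re) * c.im =
        a.re * (b.re * c.re - b.im * c.im) - a.im * (b.re * c.im + b.im * c.re)
      ring
    · show (a.re * b.re - a.im * b.im) * c.im + (a.re * b.im + a.im * b.re) * c.re =
        a.re * (b.re * c.im + b.im * c.re) + a.im * (b.re * c.re - b.im * c.im)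
      ring
  one_mul a := by
    ext
    · show 1 * a.re - 0 * a.im = a.re; ring
    · show 1 * a.im + 0 * a.re = a.im; ring
  mul_one a := by
    ext
    · show a.re * 1 - a.im * 0 = a.re; ring
    · show a.re * 0 + a.im * 1 = a.im; ring
  inv_mul_cancel a := by
    ext
    · show a.re * a.re - -a.im * a.im = 1; linear_combination a.norm_eq
    · show a.re * a.im + -a.im * a.re = 0; ring
  mul_comm a b := by
    ext
    · show a.re * b.re - a.im * b.im = b.re * a.re - b.im * a.im; ring
    · show a.re * b.im + a.im * b.re = b.re * a.im + b.im * a.re; ring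

theorem Circ.mul_re (u v : Circ F) : (u * v).re = u.re * v.re - u.im * v.im := rfl
theorem Circ.mul_im (u v : Circ F) : (u * v).im = u.re * v.im + u.im * v.re := rfl
theorem Circ.one_re : (1 : Circ F).re = 1 := rfl
theorem Circ.one_im : (1 : Circ F).im = 0 := rfl
theorem Circ.inv_re (u : Circ F) : (u⁻¹).re = u.re := rfl
theorem Circ.inv_im (u : Circ F) : (u⁻¹).im = -u.im := rfl

instance Circ.finite [Finite F] : Finite (Circ F) :=
  Finite.of_injective (fun u => (u.re, u.im)) fun u v h =>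
    Circ.ext (congrArg Prod.fst h) (congrArg Prod.snd h)

/-- The torus element `(u, conj u, 1)`. -/
def t1Fun (u : Circ F) (x : Fin 8 → F) : Fin 8 → F :=
  ![x 0, x 1, u.re * x 2 - u.im * x 3, u.re * x 3 + u.im * x 2,
    u.re * x 4 + u.im * x 5, u.re * x 5 - u.im * x 4, x 6, x 7]

/-- The torus element `(1, v, conj v)`. -/
def t2Fun (v : Circ F) (x : Fin 8 → F) : Fin 8 → F :=
  ![x 0, x 1, x 2, x 3, v.re * x 4 - v.im * x 5, v.re * x 5 + v.im * x 4,
    v.re * x 6 + v.im * x 7, v.re * x 7 - v.im * x 6]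

theorem t1Fun_mul (u v : Circ F) (x : Fin 8 → F) : t1Fun (u * v) x = t1Fun u (t1Fun v x) := by
  ext i; fin_cases i <;> simp [t1Fun, Circ.mul_re, Circ.mul_im] <;> ring

theorem t2Fun_mul (u v : Circ F) (x : Fin 8 → F) : t2Fun (u * v) x = t2Fun u (t2Fun v x) := by
  ext i; fin_cases i <;> simp [t2Fun, Circ.mul_re, Circ.mul_im] <;> ring

theorem t1Fun_one (x : Fin 8 → F) : t1Fun (1 : Circ F) x = x := by
  ext i; fin_cases i <;> simp [t1Fun, Circ.one_re, Circ.one_im]

theorem t2Fun_one (x : Fin 8 → F) : t2Fun (1 : Circ F) x = x := by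
  ext i; fin_cases i <;> simp [t2Fun, Circ.one_re, Circ.one_im]

theorem t1Fun_mm (u : Circ F) (x y : Fin 8 → F) :
    t1Fun u (mm x y) = mm (t1Fun u x) (t1Fun u y) := by
  have h := u.norm_eq
  ext i
  fin_cases i <;> simp [t1Fun, mm]
  · linear_combination -(x 2 * y 2 + x 3 * y 3 + x 4 * y 4 + x 5 * y 5) * h
  · linear_combination -(x 3 * y 2 - x 2 * y 3 + x 5 * y 4 - x 4 * y 5) * h
  · ring
  · ring
  · ring
  · ring
  · linear_combination -(x 2 * y 4 - x 3 * y 5 - x 4 * y 2 + x 5 * y 3) * h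
  · linear_combination -(x 2 * y 5 + x 3 * y 4 - x 4 * y 3 - x 5 * y 2) * h

theorem t2Fun_mm (u : Circ F) (x y : Fin 8 → F) :
    t2Fun u (mm x y) = mm (t2Fun u x) (t2Fun u y) := by
  have h := u.norm_eq
  ext i
  fin_cases i <;> simp [t2Fun, mm]
  · linear_combination -(x 4 * y 4 + x 5 * y 5 + x 6 * y 6 + x 7 * y 7) * h
  · linear_combination -(x 5 * y 4 - x 4 * y 5 + x 7 * y 6 - x 6 * y 7) * h
  · linear_combination -(x 4 * y 6 - x 5 * y 7 - x 6 * y 4 + x 7 * y 5) * h
  · linear_combination -(x 4 * y 7 + x 5 * y 6 - x 6 * y 5 - x 7 * y 4) * h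
  · ring
  · ring
  · ring
  · ring

/-- An automorphism from a linear bijection. -/
def mkAut (f g : (Fin 8 → F) → (Fin 8 → F)) (hadd : ∀ x y, f (x + y) = f x + f y)
    (hsmul : ∀ (c : F) x, f (c • x) = c • f x) (hfg : ∀ x, g (f x) = x) (hgf : ∀ x, f (g x) = x)
    (hmul : ∀ x y, f (mm x y) = mm (f x) (f y)) : Aut F :=
  ⟨{ toFun := f, invFun := g, map_add' := hadd, map_smul' := hsmul, left_inv := hfg,
     right_inv := hgf }, hmul⟩

/-- The first torus factor. -/
def t1 : Circ F →* Aut F where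
  toFun u := mkAut (t1Fun u) (t1Fun u⁻¹)
    (fun x y => by ext i; fin_cases i <;> simp [t1Fun] <;> ring)
    (fun c x => by ext i; fin_cases i <;> simp [t1Fun] <;> ring)
    (fun x => by rw [← t1Fun_mul, inv_mul_cancel, t1Fun_one])
    (fun x => by rw [← t1Fun_mul, mul_inv_cancel, t1Fun_one]) (t1Fun_mm u)
  map_one' := Subtype.ext (LinearEquiv.ext t1Fun_one)
  map_mul' u v := Subtype.ext (LinearEquiv.ext (t1Fun_mul u v))

/-- The second torus factor. -/
def t2 : Circ F →* Aut F where
  toFun u := mkAut (t2Fun u) (t2Fun u⁻¹)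
    (fun x y => by ext i; fin_cases i <;> simp [t2Fun] <;> ring)
    (fun c x => by ext i; fin_cases i <;> simp [t2Fun] <;> ring)
    (fun x => by rw [← t2Fun_mul, inv_mul_cancel, t2Fun_one])
    (fun x => by rw [← t2Fun_mul, mul_inv_cancel, t2Fun_one]) (t2Fun_mm u)
  map_one' := Subtype.ext (LinearEquiv.ext t2Fun_one)
  map_mul' u v := Subtype.ext (LinearEquiv.ext (t2Fun_mul u v))

theorem t1_commute_t2 (u v : Circ F) : Commute (t1 u) (t2 v) := by
  refine Subtype.ext (LinearEquiv.ext fun x => ?_)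
  show t1Fun u (t2Fun v x) = t2Fun v (t1Fun u x)
  ext i; fin_cases i <;> simp [t1Fun, t2Fun] <;> ring

/-- The torus. -/
def torus : Circ F × Circ F →* Aut F := MonoidHom.noncommCoprod t1 t2 t1_commute_t2

theorem torus_apply (u v : Circ F) (x : Fin 8 → F) :
    (torus (u, v)).1 x = t1Fun u (t2Fun v x) := rfl

/-- Conjugation of all coordinates. -/
def sigmaFun (x : Fin 8 → F) : Fin 8 → F := ![x 0, -x 1, x 2, -x 3, x 4, -x 5, x 6, -x 7]

/-- The exchange of two coordinates. -/
def piFun (x : Fin 8 → F) : Fin 8 → F := ![x 0, x 1, -x 4, -x 5, -x 2, -x 3, -x 6, -x 7]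

theorem sigmaFun_sigmaFun (x : Fin 8 → F) : sigmaFun (sigmaFun x) = x := by
  ext i; fin_cases i <;> simp [sigmaFun]

theorem piFun_piFun (x : Fin 8 → F) : piFun (piFun x) = x := by
  ext i; fin_cases i <;> simp [piFun]

/-- Conjugation. -/
def sigma : Aut F :=
  mkAut sigmaFun sigmaFun
    (fun x y => by ext i; fin_cases i <;> simp [sigmaFun] <;> ring)
    (fun c x => by ext i; fin_cases i <;> simp [sigmaFun] <;> ring)
    sigmaFun_sigmaFun sigmaFun_sigmaFun
    (fun x y => by ext i; fin_cases i <;> simp [sigmaFun, mm] <;> ring)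

/-- The exchange. -/
def swap : Aut F :=
  mkAut piFun piFun
    (fun x y => by ext i; fin_cases i <;> simp [piFun] <;> ring)
    (fun c x => by ext i; fin_cases i <;> simp [piFun] <;> ring)
    piFun_piFun piFun_piFun
    (fun x y => by ext i; fin_cases i <;> simp [piFun, mm] <;> ring)

theorem sigma_apply (x : Fin 8 → F) : (sigma : Aut F).1 x = sigmaFun x := rfl

theorem swap_apply (x : Fin 8 → F) : (swap : Aut F).1 x = piFun x := rfl

theorem sigma_mul_self : (sigma : Aut F) * sigma = 1 :=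
  Subtype.ext (LinearEquiv.ext sigmaFun_sigmaFun)

theorem swap_mul_self : (swap : Aut F) * swap = 1 :=
  Subtype.ext (LinearEquiv.ext piFun_piFun)

theorem sigma_commute_swap : Commute (sigma : Aut F) swap := by
  refine Subtype.ext (LinearEquiv.ext fun x => ?_)
  show sigmaFun (piFun x) = piFun (sigmaFun x)
  ext i; fin_cases i <;> simp [sigmaFun, piFun]

theorem sigma_torus (u v : Circ F) : sigma * torus (u, v) * sigma = torus (u⁻¹, v⁻¹) := by
  refine Subtype.ext (LinearEquiv.ext fun x => ?_)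
  show sigmaFun (t1Fun u (t2Fun v (sigmaFun x))) = t1Fun u⁻¹ (t2Fun v⁻¹ x)
  ext i; fin_cases i <;> simp [sigmaFun, t1Fun, t2Fun, Circ.inv_re, Circ.inv_im] <;> ring

theorem swap_torus (u v : Circ F) : swap * torus (u, v) * swap = torus (u⁻¹ * v, v) := by
  refine Subtype.ext (LinearEquiv.ext fun x => ?_)
  show piFun (t1Fun u (t2Fun v (piFun x))) = t1Fun (u⁻¹ * v) (t2Fun v x)
  have h := v.norm_eq
  ext i
  fin_cases i <;>
    simp [piFun, t1Fun, t2Fun, Circ.inv_re, Circ.inv_im, Circ.mul_re, Circ.mul_im] <;>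
    grobner

end Cfsg.Agent.G2Syl
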